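import Cfsg.Agent.H791.E8L.Rel
import Mathlib.LinearAlgebra.FiniteDimensional.Lemmas

/-!
# S5925, boxes D, M (helper791): relations with the orbit sum; the count when there are fixed vectors
-/

set_option autoImplicit false
set_option linter.unusedSectionVars false

namespace Cfsg.Agent.H791.E8L

theorem Rel.inv {M : Type*} [Group M] {x y t : M} (h : Rel x y t) : Rel x⁻¹ y t where
  x11 := by rw [inv_pow, h.x11, inv_one]
  y5 := h.y5
  t2 := h.t2
  xt := by
    have ht : t⁻¹ = t := inv_eq_of_mul_eq_one_right h.t2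
    have h1 : x⁻¹ * t = x⁻¹ * (t * x⁻¹) * x⁻¹⁻¹ := by group
    rw [h1, conj_pow]
    have h2 : t * x⁻¹ = (x * t)⁻¹ := by rw [mul_inv_rev, ht]
    rw [h2, inv_pow, h.xt]
    group
  yx := by
    have h1 : y * x⁻¹ * y⁻¹ = (y * x * y⁻¹)⁻¹ := by group
    rw [h1, h.yx, inv_pow]
  ty := h.ty

section

variable {K V : Type*} [Field K] [AddCommGroup V] [Module K V] {x y t : V ≃ₗ[K] V}

theorem inv_pow_eq (h : x ^ 11 = 1) {i j : ℕ} (hij : i + j = 11) : (x⁻¹) ^ i = x ^ j := by
  have h1 : x ^ i * x ^ j = 1 := by rw [← pow_add, hij, h]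
  rw [inv_pow]
  exact inv_eq_of_mul_eq_one_right h1

theorem XQ_inv (h : x ^ 11 = 1) : XQ x⁻¹ = XN x := by
  ext v
  rw [XQ_apply, XN_apply, inv_pow_eq h (show 1 + 10 = 11 from rfl), inv_pow_eq h (show 3 + 8 = 11 from rfl),
    inv_pow_eq h (show 4 + 7 = 11 from rfl), inv_pow_eq h (show 5 + 6 = 11 from rfl),
    inv_pow_eq h (show 9 + 2 = 11 from rfl)]
  abel

theorem XN_inv (h : x ^ 11 = 1) : XN x⁻¹ = XQ x := by
  have h1 : (x⁻¹) ^ 11 = 1 := by rw [inv_pow, h, inv_one]
  rw [← XQ_inv h1, inv_inv]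

theorem sv_eq (v : V) : sv x t v = v + t v + XQ x (t v) + XN x (t v) := by
  rw [sv, XQ_apply, XN_apply]
  simp only [Finset.sum_range_succ, Finset.sum_range_zero, zero_add]
  have h1 : (x ^ 0) (t v) = t v := rfl
  rw [h1]
  abel

theorem sv_inv (h : x ^ 11 = 1) (v : V) : sv x⁻¹ t v = sv x t v := by
  rw [sv_eq, sv_eq, XQ_inv h, XN_inv h]
  abel

/-- the map `v ↦ (1 + X_N) t v` -/
def gv (x t : V ≃ₗ[K] V) : V →ₗ[K] V := (LinearMap.id + XN x) ∘ₗ (t : V →ₗ[K] V)

theorem gv_apply (v : V) : gv x t v = t v + XN x (t v) := rfl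

theorem fv_inv (h : x ^ 11 = 1) (v : V) : fv x⁻¹ t v = gv x t v := by
  rw [fv_apply, gv_apply, XQ_inv h]

theorem gv_inv (h : x ^ 11 = 1) (v : V) : gv x⁻¹ t v = fv x t v := by
  rw [fv_apply, gv_apply, XN_inv h]

/-- `t v = v - s + a + b` -/
theorem t_eq (v : V) : t v = v - sv x t v + fv x t v + gv x t v := by
  rw [sv_eq, fv_apply, gv_apply]
  abel

/-- `t a = - a + s` -/
theorem Rel.t_fv (h : Rel x y t) {v : V} (hx : x v = v) (hy : y v = v) :
    t (fv x t v) = - fv x t v + sv x t v := by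
  rw [fv_apply, map_add, h.tt, h.t_XQ hx hy, sv_eq]
  abel

/-- `t b = - b + s` -/
theorem Rel.t_gv (h : Rel x y t) {v : V} (hx : x v = v) (hy : y v = v) :
    t (gv x t v) = - gv x t v + sv x t v := by
  rw [gv_apply, map_add, h.tt, h.t_XN hx hy, sv_eq]
  abel

theorem inv_app {v : V} (hx : x v = v) : x⁻¹ v = v := by
  have h3 : x⁻¹ (x v) = v := x.symm_apply_apply v
  rwa [hx] at h3

/-- `a = 0` implies that `v` is fixed by `t` (no hypothesis on fixed vectors) -/
theorem Rel.t_of_fv (h : Rel x y t) (h2 : (2 : K) ≠ 0) {v : V} (hx : x v = v) (hy : y v = v)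
    (hv : fv x t v = 0) : t v = v ∧ sv x t v = 0 := by
  have hs : sv x t v = 0 := by
    have h1 := h.t_fv hx hy
    rw [hv, map_zero, neg_zero, zero_add] at h1
    exact h1.symm
  refine ⟨?_, hs⟩
  rw [fv_apply, XQ_apply] at hv
  have h0 : t ((x ^ 0) (t v)) = v := h.tt v
  have hA0 : (x ^ 0) (t v) + (x ^ 1) (t v) + (x ^ 3) (t v) + (x ^ 4) (t v) + (x ^ 5) (t v) + (x ^ 9) (t v) = 0 := by
    rw [← hv]
    have h1 : (x ^ 0) (t v) = t v := rfl
    rw [h1]
    abel
  have hA2 : (x ^ 2) (t v) + (x ^ 3) (t v) + (x ^ 5) (t v) + (x ^ 6) (t v) + (x ^ 7) (t v) + (x ^ 0) (t v) = 0 := by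
    have h1 := congrArg (fun u => (x ^ 2) u) hA0
    simp only [map_add, map_zero, pow_app] at h1
    norm_num only at h1
    rw [pow_mod' h.x11 11] at h1
    norm_num only at h1
    exact h1
  have hB2 : (x ^ 5) (t v) + (x ^ 7) (t v) + (x ^ 2) (t v) + (x ^ 9) (t v) + (x ^ 3) (t v) + v = 0 := by
    have h1 := congrArg (fun u => t u) hA2
    simp only [map_add, map_zero, h0] at h1
    rw [h.t_pow hx hy (i := 2) (j := 5) (by norm_num), h.t_pow hx hy (i := 3) (j := 7) (by norm_num),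
      h.t_pow hx hy (i := 5) (j := 2) (by norm_num), h.t_pow hx hy (i := 6) (j := 9) (by norm_num),
      h.t_pow hx hy (i := 7) (j := 3) (by norm_num)] at h1
    exact h1
  have hB7 : (x ^ 5) (t v) + (x ^ 6) (t v) + (x ^ 3) (t v) + (x ^ 2) v + (x ^ 1) (t v) + (x ^ 4) (t v) = 0 := by
    have h1 := congrArg (fun u => (x ^ 7) u) hA0
    simp only [map_add, map_zero, pow_app] at h1
    norm_num only at h1
    rw [pow_mod' h.x11 11, pow_mod' h.x11 12, pow_mod' h.x11 16] at h1
    norm_num only at h1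
    have h2 := congrArg (fun u => t u) h1
    simp only [map_add, map_zero, h0] at h2
    rw [h.t_pow hx hy (i := 7) (j := 3) (by norm_num), h.t_pow hx hy (i := 8) (j := 4) (by norm_num),
      h.t_pow hx hy (i := 10) (j := 1) (by norm_num), h.t_pow hx hy (i := 1) (j := 10) (by norm_num),
      h.t_pow hx hy (i := 5) (j := 2) (by norm_num)] at h2
    have h3 := congrArg (fun u => (x ^ 2) u) h2
    simp only [map_add, map_zero, pow_app] at h3
    norm_num only at h3
    rw [pow_mod' h.x11 12] at h3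
    norm_num only at h3
    rw [← h3]
  have hv2 : (x ^ 2) v = v := by
    rw [pow_two]
    change x (x v) = v
    rw [hx, hx]
  rw [hv2] at hB7
  have h5 : (2 : K) • ((x ^ 0) (t v) - v) = 0 := by
    linear_combination (norm := module) hA0 + hA2 - hB2 - hB7
  rcases smul_eq_zero.1 h5 with h6 | h6
  · exact absurd h6 h2
  · exact sub_eq_zero.1 h6

/-- `b = 0` implies that `v` is fixed by `t` -/
theorem Rel.t_of_gv (h : Rel x y t) (h2 : (2 : K) ≠ 0) {v : V} (hx : x v = v) (hy : y v = v)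
    (hv : gv x t v = 0) : t v = v ∧ sv x t v = 0 := by
  have h1 := h.inv.t_of_fv h2 (inv_app hx) hy (by rw [fv_inv h.x11, hv])
  rwa [sv_inv h.x11] at h1

/-- `y` fixes `g v` -/
theorem Rel.g_y (h : Rel x y t) {v : V} (hy : y v = v) : y (gv x t v) = gv x t v := by
  have h1 := h.inv.f_y (v := v) hy
  rwa [fv_inv h.x11] at h1

theorem g_part (h3 : (3 : K) = 0) (h : x ^ 11 = 1) (v : V) : XN x (gv x t v) = 0 := by
  have h1 := f_part (t := t) h3 (x := x⁻¹) (by rw [inv_pow, h, inv_one]) v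
  rwa [fv_inv h, XQ_inv h] at h1

/-- the other quintic part of the vectors fixed by `y` -/
def partN (x y : V ≃ₗ[K] V) : Submodule K V where
  carrier := {v | y v = v ∧ XN x v = 0}
  zero_mem' := ⟨map_zero _, map_zero _⟩
  add_mem' := fun {a b} ha hb => ⟨by rw [map_add, ha.1, hb.1], by rw [map_add, ha.2, hb.2, add_zero]⟩
  smul_mem' := fun c a ha => ⟨by rw [map_smul, ha.1], by rw [map_smul, ha.2, smul_zero]⟩

/-- the vectors fixed by `x`, `y` and `t` -/
def fixS (x y t : V ≃ₗ[K] V) : Submodule K V where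
  carrier := {v | x v = v ∧ y v = v ∧ t v = v}
  zero_mem' := ⟨map_zero _, map_zero _, map_zero _⟩
  add_mem' := fun {a b} ha hb =>
    ⟨by rw [map_add, ha.1, hb.1], by rw [map_add, ha.2.1, hb.2.1], by rw [map_add, ha.2.2, hb.2.2]⟩
  smul_mem' := fun c a ha => ⟨by rw [map_smul, ha.1], by rw [map_smul, ha.2.1], by rw [map_smul, ha.2.2]⟩

theorem Rel.sv_mem (h : Rel x y t) {v : V} (hx : x v = v) (hy : y v = v) : sv x t v ∈ fixS x y t :=
  h.s_fix hx hy

/-- a vector fixed by `x` in a quintic part is zero -/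
theorem eq_zero_of_fix (h3 : (3 : K) = 0) {u : V} (hx : x u = u) (hu : XQ x u = 0) : u = 0 := by
  have hp : ∀ i : ℕ, (x ^ i) u = u := by
    intro i
    induction i with
    | zero => rfl
    | succ i ih =>
      rw [pow_succ']
      change x ((x ^ i) u) = u
      rw [ih, hx]
  rw [XQ_apply, hp, hp, hp, hp, hp] at hu
  have h4 : (3 : K) • u = 0 := by rw [h3, zero_smul]
  linear_combination (norm := module) (2 : K) • h4 - hu

open Module in
/-- the count when there are fixed vectors: `g` is an injective map of the fixed vectors of `⟨x, y, t⟩` into the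
quintic part with values fixed by `t` -/
theorem Rel.count [FiniteDimensional K V] (h : Rel x y t) (h3 : (3 : K) = 0) (g : fixS x y t →ₗ[K] V)
    (hg : ∀ w, g w = 0 → w = 0) (hgp : ∀ w, g w ∈ partQ x y) (hgt : ∀ w, t (g w) = g w) :
    finrank K (fixB x y) ≤ finrank K (partQ x y) := by
  have h2 : (2 : K) ≠ 0 := by
    intro h2
    have h4 : (1 : K) = 0 := by linear_combination h3 - h2
    exact one_ne_zero h4
  let Φ : (fixB x y × fixS x y t) →ₗ[K] V :=
    LinearMap.coprod (fv x t ∘ₗ (fixB x y).subtype) g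
  have hΦ : ∀ p, Φ p = fv x t (p.1 : V) + g p.2 := fun p => rfl
  have hker : ∀ p, Φ p = 0 → t (p.1 : V) = p.1 ∧ p.2 = 0 := by
    rintro ⟨v, w⟩ hp
    rw [hΦ] at hp
    simp only at hp ⊢
    have hx : x (v : V) = v := v.2.1
    have hy : y (v : V) = v := v.2.2
    have h4 := congrArg (fun u => t u) hp
    simp only [map_add, map_zero, h.t_fv hx hy, hgt] at h4
    have h5 : fv x t (v : V) + sv x t (v : V) = 0 := by
      have h6 : (3 : K) • fv x t (v : V) = 0 := by rw [h3, zero_smul]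
      linear_combination (norm := module) h4 - hp + h6
    have h7 : x (sv x t (v : V)) = sv x t (v : V) := (h.s_fix hx hy).1
    have h8 : XQ x (sv x t (v : V)) = 0 := by
      have h9 : sv x t (v : V) = - fv x t (v : V) := (neg_eq_of_add_eq_zero_right h5).symm
      rw [h9, map_neg, f_part h3 h.x11, neg_zero]
    have h9 : sv x t (v : V) = 0 := eq_zero_of_fix h3 h7 h8
    rw [h9, add_zero] at h5
    refine ⟨(h.t_of_fv h2 hx hy h5).1, hg w ?_⟩
    rwa [h5, zero_add] at hp
  have h4 := LinearMap.finrank_range_add_finrank_ker Φ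
  have h5 : finrank K (LinearMap.range Φ) ≤ finrank K (partQ x y) := by
    apply Submodule.finrank_mono
    rintro _ ⟨p, rfl⟩
    rw [hΦ]
    exact (partQ x y).add_mem ⟨h.f_y p.1.2.2, f_part h3 h.x11 _⟩ (hgp p.2)
  have h6 : finrank K (LinearMap.ker Φ) ≤ finrank K (fixS x y t) := by
    let ψ : LinearMap.ker Φ →ₗ[K] fixS x y t :=
      { toFun := fun p => ⟨(p.1.1 : V), p.1.1.2.1, p.1.1.2.2, (hker p.1 p.2).1⟩
        map_add' := fun p q => rfl
        map_smul' := fun c p => rfl }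
    refine LinearMap.finrank_le_finrank_of_injective (f := ψ) ?_
    intro p q hpq
    have h7 : ((p.1.1 : fixB x y) : V) = (q.1.1 : V) := congrArg (fun u : fixS x y t => (u : V)) hpq
    exact Subtype.ext (Prod.ext (Subtype.ext h7) (((hker p.1 p.2).2).trans ((hker q.1 q.2).2).symm))
  rw [finrank_prod] at h4
  omega

theorem partQ_inv (h : x ^ 11 = 1) : partQ x⁻¹ y = partN x y := by
  ext v
  change (y v = v ∧ XQ x⁻¹ v = 0) ↔ (y v = v ∧ XN x v = 0)
  rw [XQ_inv h]

theorem fixB_inv : fixB x⁻¹ y = fixB x y := by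
  ext v
  refine ⟨fun hv => ⟨?_, hv.2⟩, fun hv => ⟨inv_app hv.1, hv.2⟩⟩
  have h1 := inv_app hv.1
  rwa [inv_inv] at h1

theorem fixS_inv : fixS x⁻¹ y t = fixS x y t := by
  ext v
  refine ⟨fun hv => ⟨?_, hv.2⟩, fun hv => ⟨inv_app hv.1, hv.2⟩⟩
  have h1 := inv_app hv.1
  rwa [inv_inv] at h1

open Module in
/-- the count for the other quintic part -/
theorem Rel.countN [FiniteDimensional K V] (h : Rel x y t) (h3 : (3 : K) = 0) (g : fixS x y t →ₗ[K] V)
    (hg : ∀ w, g w = 0 → w = 0) (hgp : ∀ w, g w ∈ partN x y) (hgt : ∀ w, t (g w) = g w) :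
    finrank K (fixB x y) ≤ finrank K (partN x y) := by
  have h1 := h.inv.count h3 (g ∘ₗ (LinearEquiv.ofEq _ _ fixS_inv).toLinearMap)
    (fun w hw => by
      have h2 := hg _ hw
      exact (LinearEquiv.map_eq_zero_iff _).1 h2)
    (fun w => by rw [partQ_inv h.x11]; exact hgp _) (fun w => hgt _)
  rwa [partQ_inv h.x11, fixB_inv] at h1

end

end Cfsg.Agent.H791.E8L
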